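import Cfsg.Agent.Lib.H04.Tf.Tab.X_F4
import Cfsg.Agent.Lib.H04.Tf.Step

/-! Tables for the levels of the positive roots of type F4. -/

set_option autoImplicit false
set_option maxRecDepth 100000
set_option Elab.async false
set_option synthInstance.maxHeartbeats 0
set_option synthInstance.maxSize 100000

open Cfsg.Lie Cfsg.Agent.H04.Chev Cfsg.Agent.H04.Tw
open Cfsg.Agent.H04.Chev.TF4

namespace Cfsg.Agent.H04.Tf.TF4

/-- the order of the positive roots -/
def ordL : List ℕ := [27, 25, 28, 30, 37, 32, 35, 31, 40, 46, 39, 45, 29, 41, 44, 47, 38, 43, 34, 26, 36, 42, 33, 24]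

/-- the level of a root -/
def lvl (r : ℕ) : ℕ := ordL.idxOf r

/-- the roots of a level -/
def Lv (i : ℕ) : List ℕ := [ordL.getD i 0]

theorem clw1 : ∀ r, r < 48 → 24 ≤ r → lvl r < 24 := by decide +kernel

theorem clw2 : ∀ r, r < 48 → 24 ≤ r → ∀ s, s < 48 → 24 ≤ s → lvl r = lvl s → s ≠ r → chevF4.commTerms r s = [] := by decide +kernel

theorem clw3 : ∀ r, r < 48 → 24 ≤ r → ∀ s, s < 48 → 24 ≤ s → lvl r < lvl s → ∀ c ∈ chevF4.commTerms r s, 24 ≤ c.1 ∧ lvl r < lvl c.1 := by decide +kernel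

theorem clw4 : ∀ i, i < 24 → ∀ r, r < 48 → (r ∈ Lv i ↔ (24 ≤ r ∧ lvl r = i)) := by decide +kernel

theorem clw5 : ∀ i, i < 24 → ∀ r ∈ Lv i, r < 48 := by decide +kernel

theorem clw : ClW chevF4 lvl 24 Lv where
  lt := fun r h1 h2 => clw1 r h2 h1
  same := fun r h1 h2 s h3 h4 e h5 => clw2 r h2 h1 s h4 h3 e h5
  grow := fun r h1 h2 s h3 h4 e c hc => clw3 r h2 h1 s h4 h3 e c hc
  mem := by
    intro i hi r
    constructor
    · intro h
      have h1 := clw5 i hi r h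
      have h2 := (clw4 i hi r h1).mp h
      exact ⟨h2.1, h1, h2.2⟩
    · rintro ⟨h1, h2, h3⟩
      exact (clw4 i hi r h2).mpr ⟨h1, h3⟩
  nodup := by
    intro i _
    simp [Lv]

theorem sft1 : ∀ r, r < 48 → X.bar r < 48 ∧ X.bar (X.bar r) = r ∧ X.bar (negF chevF4 r) = negF chevF4 (X.bar r) ∧ X.lam (negF chevF4 r) = X.lam r ∧ (24 ≤ r → 24 ≤ X.bar r) := by decide +kernel

theorem sft2 : ∀ r, r < 48 → ∀ s, s < 48 → s ≠ r → ∀ y ∈ T.P.col s (negF chevF4 r), y.row ≠ r := by decide +kernel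

theorem sft : SFT chevF4 T X.bar where
  lt := fun r h => (sft1 r h).1
  bb := fun r h => (sft1 r h).2.1
  neg_bar := fun r h => (sft1 r h).2.2.1
  pos := fun r h1 h2 => (sft1 r h2).2.2.2.2 h1
  xinj := sft2

end Cfsg.Agent.H04.Tf.TF4
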